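import Cfsg.Agent.H583.DPi.Eng
import Cfsg.Agent.H835.Five
import Cfsg.Agent.H559.FiSpec

/-!
# S4247, sporadic rows: `Fi22` (helper859)

No involution of `Fi22` centralises a subgroup of order 25, and there is no element of order 77.
-/

set_option autoImplicit false

namespace Cfsg.Agent.H859.DPi

open Subgroup Cfsg Cfsg.Agent.H583.DPi
open Cfsg.Agent.LThreeFi22 Cfsg.Agent.H836 Cfsg.Agent.H835.Five Cfsg.Agent.H835.SymFive Cfsg.Agent.SporRec.Co3
  Cfsg.Agent.SporRec.Co3.FiveHom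

universe u v

theorem chk_ten : ∀ τ : P5, τ ^ 10 = 1 → τ ^ 5 = 1 ∨ τ ^ 2 = 1 := by decide +kernel

/-- a pair of commuting elements of the symmetric group of degree five -/
theorem sym_pair {σ τ : P5} (hσ : σ ^ 2 = 1) (hτ : τ ^ 5 = 1) (h : Commute σ τ) : σ = 1 ∨ τ = 1 := by
  have h10 : (σ * τ) ^ 10 = 1 := by
    have h1 : σ ^ 10 = (σ ^ 2) ^ 5 := by rw [← pow_mul]
    have h2 : τ ^ 10 = (τ ^ 5) ^ 2 := by rw [← pow_mul]
    rw [h.mul_pow, h1, h2, hσ, hτ, one_pow, one_pow, mul_one]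
  rcases chk_ten _ h10 with h5 | h2
  · left
    rw [h.mul_pow, hτ, mul_one] at h5
    have h3 : σ ^ 5 = (σ ^ 2) ^ 2 * σ := by rw [← pow_mul, ← pow_succ]
    rw [h5, hσ, one_pow, one_mul] at h3
    exact h3.symm
  · right
    rw [h.mul_pow, hσ, one_mul] at h2
    have h3 : τ ^ 5 = (τ ^ 2) ^ 2 * τ := by rw [← pow_mul, ← pow_succ]
    rw [hτ, h2, one_pow, one_mul] at h3
    exact h3.symm

/-- **no involution centralises a subgroup of order 25** -/
theorem fi_key {K : Type v} [Group K] {T : Set K} (I : Inv K T) {Q : Subgroup K} (hQ : Nat.card Q = 25) {y : K}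
    (hy : orderOf y = 2) (hc : ∀ x ∈ Q, x * y = y * x) : False := by
  have hfin := I.ctx.finite
  have h5 : Fact (Nat.Prime 5) := ⟨by norm_num⟩
  obtain ⟨⟨u, huQ⟩, hu'⟩ := exists_prime_orderOf_dvd_card' (G := Q) 5 (by rw [hQ]; norm_num)
  rw [Subgroup.orderOf_mk] at hu'
  have hu : u ^ 5 = 1 := by rw [← hu']; exact pow_orderOf_eq_one u
  have hu1 : u ≠ 1 := by
    rintro rfl
    rw [orderOf_one] at hu'
    norm_num at hu'
  have hQa : ∀ a ∈ Q, ∀ b ∈ Q, a * b = b * a := by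
    intro a ha b hb
    have h0 := IsPGroup.isMulCommutative_of_card_eq_prime_sq (G := Q) (p := 5) (by rw [hQ]; norm_num)
    have h1 := h0.is_comm.comm ⟨a, ha⟩ ⟨b, hb⟩
    exact congrArg Subtype.val h1
  obtain ⟨f, hf, hS, hcl⟩ := exists_sym I.ctx hu hu1
  have hle : f.range ≤ centralizer ({u} : Set K) := by
    rw [← hcl, closure_le]
    intro t ht
    exact mem_centralizer_singleton_iff.2 ht.2.symm
  have hn : ∀ g ∈ centralizer ({u} : Set K), ∀ p : P5, p.IsSwap → ∃ q : P5, q.IsSwap ∧ g * f p * g⁻¹ = f q :=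
    fun g hg => norm_hyp I hS g (by
      rw [← Main.centralizer_zpowers] at hg
      exact centralizer_le_normalizer _ hg)
  have hcz : Nat.card ↥(centralizer ({u} : Set K) ⊓ centralizer (f.range : Set K)) = 5 := by
    rw [← hcl, centralizer_closure]
    exact card_cz I hu hu1
  have hbot := inf_bot f hf (centralizer ({u} : Set K))
  have hfive : ∀ c ∈ centralizer ({u} : Set K) ⊓ centralizer (f.range : Set K), c ^ 5 = 1 := by
    intro c hc
    have h1 : (⟨c, hc⟩ : ↥(centralizer ({u} : Set K) ⊓ centralizer (f.range : Set K))) ^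
        Nat.card ↥(centralizer ({u} : Set K) ⊓ centralizer (f.range : Set K)) = 1 := pow_card_eq_one'
    have h2 := congrArg Subtype.val h1
    rw [hcz] at h2
    exact h2
  have hcomm : ∀ c ∈ centralizer ({u} : Set K) ⊓ centralizer (f.range : Set K), ∀ σ : P5, Commute c (f σ) :=
    fun c hc σ => (mem_centralizer_iff.1 hc.2 (f σ) ⟨σ, rfl⟩).symm
  -- the involution
  have hyu : y ∈ centralizer ({u} : Set K) := mem_centralizer_singleton_iff.2 (hc u huQ).symm
  obtain ⟨c, hcc, σ, hyσ⟩ := exists_mul f hf hle hn hyu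
  have hy2 : y ^ 2 = 1 := by rw [← hy]; exact pow_orderOf_eq_one y
  have h1 : c ^ 2 * f (σ ^ 2) = 1 := by
    rw [map_pow, ← (hcomm c hcc σ).mul_pow, hyσ, hy2]
  have h2 : c ^ 2 = 1 := by
    have h3 : c ^ 2 ∈ (centralizer ({u} : Set K) ⊓ centralizer (f.range : Set K)) ⊓ f.range := by
      refine ⟨pow_mem hcc 2, ?_⟩
      rw [eq_inv_of_mul_eq_one_left h1, ← map_inv]
      exact ⟨_, rfl⟩
    rw [hbot] at h3
    exact mem_bot.1 h3
  have hσ2 : σ ^ 2 = 1 := by
    rw [h2, one_mul] at h1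
    exact hf (by rw [h1, map_one])
  have hc1 : c = 1 := by
    have h3 := hfive c hcc
    have h4 : c ^ 5 = (c ^ 2) ^ 2 * c := by rw [← pow_mul, ← pow_succ]
    rw [h3, h2, one_pow, one_mul] at h4
    exact h4.symm
  rw [hc1, one_mul] at hyσ
  -- an element of `Q`
  obtain ⟨q, hqQ, hq⟩ : ∃ q ∈ Q, q ∉ centralizer ({u} : Set K) ⊓ centralizer (f.range : Set K) := by
    by_contra hcon
    push Not at hcon
    have h3 := card_le_of_le (show Q ≤ _ from hcon)
    rw [hQ, hcz] at h3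
    norm_num at h3
  have hqu : q ∈ centralizer ({u} : Set K) := mem_centralizer_singleton_iff.2 (hQa q hqQ u huQ)
  obtain ⟨d, hdc, τ, hqτ⟩ := exists_mul f hf hle hn hqu
  have hq25 : q ^ 25 = 1 := by
    have h3 : (⟨q, hqQ⟩ : Q) ^ 25 = 1 := by
      rw [← hQ]
      exact pow_card_eq_one'
    exact congrArg Subtype.val h3
  have hτ : τ ^ 5 = 1 := by
    apply five_torsion
    apply hf
    have h3 : d ^ 25 = 1 := by
      have h5 : d ^ 25 = (d ^ 5) ^ 5 := by rw [← pow_mul]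
      rw [h5, hfive d hdc, one_pow]
    have h4 := (hcomm d hdc τ).mul_pow 25
    rw [hqτ, hq25, h3, one_mul] at h4
    rw [map_pow, map_one, ← h4]
  have hτ1 : τ ≠ 1 := by
    rintro rfl
    rw [map_one, mul_one] at hqτ
    exact hq (hqτ ▸ hdc)
  have hστ : Commute σ τ := by
    apply hf
    have h3 := hc q hqQ
    rw [← hqτ, ← hyσ] at h3
    rw [map_mul, map_mul]
    apply mul_left_cancel (a := d)
    calc d * (f σ * f τ) = f σ * (d * f τ) := by rw [← mul_assoc, (hcomm d hdc σ).eq, mul_assoc]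
      _ = d * f τ * f σ := h3.symm
      _ = d * (f τ * f σ) := mul_assoc _ _ _
  rcases sym_pair hσ2 hτ hστ with h | h
  · rw [h, map_one] at hyσ
    rw [← hyσ, orderOf_one] at hy
    norm_num at hy
  · exact hτ1 h

/-- **`Fi22`** -/
theorem nf_fi22 {S : Type u} [Group S] [Finite S] (h : Cfsg.Spor.IsoFi22 S) :
    NF S 5 2 2 ∧ (∀ g : S, orderOf g ≠ 77) := by
  refine ⟨fun Q hQ y hy hc => ?_, fun g hg => Cfsg.Agent.H559.FiSpec.no77 h ⟨g, hg⟩⟩
  obtain ⟨e⟩ := h
  exact fi_key (Cfsg.Agent.H836.inv_of_iso e) (Q := Q) (by rw [hQ]; norm_num) hy hc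

end Cfsg.Agent.H859.DPi
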